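import Cfsg.Agent.Lib.SteinerUniq.Graph22
import Cfsg.Agent.Lib.Golay.Basic
import Cfsg.Agent.S0410

/-!
A strongly regular graph with parameters (100, 22, 0, 6) is the point-block graph of a Steiner
system S(3,6,22), on the neighbours of a vertex; hence it is unique.
-/

set_option autoImplicit false
set_option linter.unusedSectionVars false

namespace Cfsg.Agent.Lib.SteinerUniq.Srg100

open Finset Cfsg Cfsg.Agent.Lib.SteinerUniq.Graph22

section Iso

variable {α β : Type*} [Fintype α] [DecidableEq α] [Fintype β] [DecidableEq β]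
  {B : Set (Finset α)} {B' : Set (Finset β)}

/-- Isomorphic systems have isomorphic point-block graphs. -/
theorem pbIso (hα : Fintype.card α = 22) (hβ : Fintype.card β = 22) (hB : IsSteinerSystem 3 6 B)
    (hB' : IsSteinerSystem 3 6 B') (h : SetSystemIso B B') :
    Nonempty (pointBlockGraph B ≃g pointBlockGraph B') := by
  obtain ⟨e, he⟩ := h
  have hmem : ∀ b : Finset α, b ∈ B → b.image e ∈ B' := fun b hb => by
    rw [← he]
    exact ⟨b, hb, rfl⟩
  have hmem' : ∀ c ∈ B', ∃ b ∈ B, b.image e = c := fun c hc => by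
    rw [← he] at hc
    exact hc
  let f : B ≃ B' := Equiv.ofBijective (fun b => ⟨b.1.image e, hmem b.1 b.2⟩) (by
    constructor
    · intro a b hab
      apply Subtype.ext
      exact Finset.image_injective e.injective (congrArg Subtype.val hab)
    · rintro ⟨c, hc⟩
      obtain ⟨b, hb, rfl⟩ := hmem' c hc
      exact ⟨⟨b, hb⟩, rfl⟩)
  have hf : ∀ b : B, (f b).1 = b.1.image e := fun _ => rfl
  refine ⟨⟨Equiv.optionCongr (Equiv.sumCongr e f), ?_⟩⟩
  intro x y
  rcases x with _ | a | v <;> rcases y with _ | a' | w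
  · simp
  · simp [adj_ni]
  · simp [not_adj_nb]
  · simp only [Equiv.optionCongr_apply, Option.map_some, Option.map_none, Equiv.sumCongr_apply,
      Sum.map_inl]
    exact iff_of_true (adj_ni _).symm (adj_ni _).symm
  · simp [not_adj_ii]
  · simp only [Equiv.optionCongr_apply, Option.map_some, Equiv.sumCongr_apply, Sum.map_inl,
      Sum.map_inr, adj_ib, hf]
    simp
  · simp only [Equiv.optionCongr_apply, Option.map_some, Option.map_none, Equiv.sumCongr_apply,
      Sum.map_inr]
    exact iff_of_false (fun h => not_adj_nb _ h.symm) (fun h => not_adj_nb _ h.symm)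
  · simp only [Equiv.optionCongr_apply, Option.map_some, Equiv.sumCongr_apply, Sum.map_inl,
      Sum.map_inr]
    rw [SimpleGraph.adj_comm, adj_ib, SimpleGraph.adj_comm, adj_ib, hf]
    simp
  · simp only [Equiv.optionCongr_apply, Option.map_some, Equiv.sumCongr_apply, Sum.map_inr]
    rw [adj_bb hβ hB', adj_bb hα hB, hf, hf]
    exact Finset.disjoint_image e.injective

end Iso

variable {V : Type*} [Fintype V] [DecidableEq V] {G : SimpleGraph V} [DecidableRel G.Adj]

section Basic

variable (hG : G.IsSRGWith 100 22 0 6)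
include hG

theorem card_nb (v : V) : (G.neighborFinset v).card = 22 := hG.regular v

theorem no_triangle {a b c : V} (hab : G.Adj a b) (hac : G.Adj a c) (hbc : G.Adj b c) : False := by
  have h := hG.of_adj a b hab
  rw [Fintype.card_eq_zero_iff] at h
  exact h.false ⟨c, hac, hbc⟩

theorem card_common {a b : V} (hne : a ≠ b) (hn : ¬ G.Adj a b) :
    (G.neighborFinset a ∩ G.neighborFinset b).card = 6 := by
  have h := hG.of_not_adj hne hn
  rw [card_of_ncard] at h
  rw [← Set.ncard_coe_finset, ← h]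
  congr 1
  ext u
  simp [SimpleGraph.mem_commonNeighbors]

end Basic

/-- The neighbours of a vertex. -/
abbrev Pts (G : SimpleGraph V) (v₀ : V) : Type _ := {x // G.Adj v₀ x}

/-- The vertices at distance two from a vertex. -/
def far (G : SimpleGraph V) [DecidableRel G.Adj] (v₀ : V) : Finset V :=
  univ.filter (fun u => u ≠ v₀ ∧ ¬ G.Adj v₀ u)

/-- The neighbours of `v₀` adjacent to `u`. -/
def blk (G : SimpleGraph V) [DecidableRel G.Adj] (v₀ u : V) : Finset (Pts G v₀) :=
  univ.filter (fun x => G.Adj u x.1)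

theorem mem_far {v₀ u : V} : u ∈ far G v₀ ↔ u ≠ v₀ ∧ ¬ G.Adj v₀ u := by
  simp [far]

theorem mem_blk {v₀ u : V} {x : Pts G v₀} : x ∈ blk G v₀ u ↔ G.Adj u x.1 := by
  simp [blk]

section Counts

variable (hG : G.IsSRGWith 100 22 0 6) (v₀ : V)
include hG

theorem card_pts : Fintype.card (Pts G v₀) = 22 := by
  rw [Fintype.card_subtype, ← card_nb hG v₀]
  congr 1
  ext x
  simp

theorem card_far : (far G v₀).card = 77 := by
  have h1 : far G v₀ = univ \ insert v₀ (G.neighborFinset v₀) := by
    ext u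
    simp [far]
  rw [h1, card_sdiff_of_subset (subset_univ _), card_insert_of_notMem (by simp), card_nb hG,
    card_univ, hG.card]

theorem card_blk {u : V} (hu : u ∈ far G v₀) : (blk G v₀ u).card = 6 := by
  rw [mem_far] at hu
  have h1 := card_common hG (Ne.symm hu.1) hu.2
  rw [← h1, ← card_map (Function.Embedding.subtype _)]
  congr 1
  ext y
  simp only [mem_map, blk, mem_filter, mem_univ, true_and, Function.Embedding.coe_subtype,
    Subtype.exists, exists_and_left, exists_prop, exists_eq_right_right, mem_inter,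
    SimpleGraph.mem_neighborFinset]
  constructor
  · rintro ⟨h2, h3⟩
    exact ⟨h3, h2⟩
  · rintro ⟨h2, h3⟩
    exact ⟨h3, h2⟩

theorem card_through_one' (x : Pts G v₀) : ((far G v₀).filter (fun u => x ∈ blk G v₀ u)).card = 21 := by
  have h1 : (far G v₀).filter (fun u => x ∈ blk G v₀ u) = (G.neighborFinset x.1).erase v₀ := by
    ext u
    simp only [mem_filter, mem_far, mem_blk, mem_erase, SimpleGraph.mem_neighborFinset]
    constructor
    · rintro ⟨⟨h2, _⟩, h4⟩
      exact ⟨h2, h4.symm⟩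
    · rintro ⟨h2, h3⟩
      exact ⟨⟨h2, fun h => no_triangle hG x.2 h h3⟩, h3.symm⟩
  rw [h1, card_erase_of_mem (by simpa using x.2.symm), card_nb hG]

theorem not_adj_pts (x y : Pts G v₀) : ¬ G.Adj x.1 y.1 := fun h => no_triangle hG x.2 y.2 h

theorem card_through_two' {x y : Pts G v₀} (hxy : x ≠ y) :
    ((far G v₀).filter (fun u => x ∈ blk G v₀ u ∧ y ∈ blk G v₀ u)).card = 5 := by
  have h1 : (far G v₀).filter (fun u => x ∈ blk G v₀ u ∧ y ∈ blk G v₀ u)
      = (G.neighborFinset x.1 ∩ G.neighborFinset y.1).erase v₀ := by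
    ext u
    simp only [mem_filter, mem_far, mem_blk, mem_erase, mem_inter, SimpleGraph.mem_neighborFinset]
    constructor
    · rintro ⟨⟨h2, _⟩, h4, h5⟩
      exact ⟨h2, h4.symm, h5.symm⟩
    · rintro ⟨h2, h3, h4⟩
      exact ⟨⟨h2, fun h => no_triangle hG x.2 h h3⟩, h3.symm, h4.symm⟩
  rw [h1, card_erase_of_mem (by simpa using ⟨x.2.symm, y.2.symm⟩),
    card_common hG (fun h => hxy (Subtype.ext h)) (not_adj_pts hG v₀ x y)]

variable {v₀} {u : V} (hu : u ∈ far G v₀)
include hu

/-- The number of far vertices adjacent to a far vertex. -/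
theorem card_adj_far : ((far G v₀).filter (fun w => G.Adj u w)).card = 16 := by
  have h0 := hu
  rw [mem_far] at h0
  have h1 := card_common hG (Ne.symm h0.1) h0.2
  have h2 : G.neighborFinset u = ((far G v₀).filter (fun w => G.Adj u w)) ∪
      (G.neighborFinset v₀ ∩ G.neighborFinset u) := by
    ext w
    simp only [mem_union, mem_filter, mem_far, mem_inter, SimpleGraph.mem_neighborFinset]
    constructor
    · intro h
      by_cases h3 : G.Adj v₀ w
      · exact Or.inr ⟨h3, h⟩
      · refine Or.inl ⟨⟨?_, h3⟩, h⟩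
        rintro rfl
        exact h0.2 h.symm
    · rintro (⟨_, h⟩ | ⟨_, h⟩) <;> exact h
  have h3 : Disjoint ((far G v₀).filter (fun w => G.Adj u w))
      (G.neighborFinset v₀ ∩ G.neighborFinset u) := by
    rw [Finset.disjoint_left]
    intro w hw hw'
    simp only [mem_filter, mem_far, mem_inter, SimpleGraph.mem_neighborFinset] at hw hw'
    exact hw.1.2 hw'.1
  have h4 := card_nb hG u
  rw [h2, card_union_of_disjoint h3, h1] at h4
  omega

/-- The far vertices other than `u`, not adjacent to `u`. -/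
def farN (G : SimpleGraph V) [DecidableRel G.Adj] (v₀ u : V) : Finset V :=
  ((far G v₀).erase u).filter (fun w => ¬ G.Adj u w)

theorem card_farN : (farN G v₀ u).card = 60 := by
  have h1 := card_filter_add_card_filter_not (s := (far G v₀).erase u) (fun w => G.Adj u w)
  have h2 : ((far G v₀).erase u).filter (fun w => G.Adj u w)
      = (far G v₀).filter (fun w => G.Adj u w) := by
    ext w
    simp only [mem_filter, mem_erase]
    constructor
    · rintro ⟨⟨_, h⟩, h'⟩
      exact ⟨h, h'⟩
    · rintro ⟨h, h'⟩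
      exact ⟨⟨h'.ne', h⟩, h'⟩
  rw [h2, card_adj_far hG hu, card_erase_of_mem hu, card_far hG] at h1
  show (((far G v₀).erase u).filter (fun w => ¬ G.Adj u w)).card = 60
  omega

omit hG hu in
theorem inter_empty_of_adj (hG : G.IsSRGWith 100 22 0 6) {v₀ u w : V} (h : G.Adj u w) :
    blk G v₀ u ∩ blk G v₀ w = ∅ := by
  ext x
  simp only [mem_inter, mem_blk, notMem_empty, iff_false, not_and]
  exact fun h1 h2 => no_triangle hG h h1 h2

/-- The sum over the far vertices of the intersection with `blk u`. -/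
theorem sum_one : ∑ w ∈ farN G v₀ u, (blk G v₀ u ∩ blk G v₀ w).card = 120 := by
  have h1 : ∑ w ∈ farN G v₀ u, (blk G v₀ u ∩ blk G v₀ w).card
      = ∑ w ∈ (far G v₀).erase u, (blk G v₀ u ∩ blk G v₀ w).card := by
    rw [farN, Finset.sum_filter]
    apply Finset.sum_congr rfl
    intro w _
    split_ifs with h
    · rw [inter_empty_of_adj hG h, card_empty]
    · rfl
  rw [h1]
  have h2 : ∀ w ∈ (far G v₀).erase u, (blk G v₀ u ∩ blk G v₀ w).card
      = ∑ x ∈ blk G v₀ u, if x ∈ blk G v₀ w then 1 else 0 := by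
    intro w _
    rw [← card_filter]
    congr 1
  rw [Finset.sum_congr rfl h2, Finset.sum_comm]
  have h3 : ∀ x ∈ blk G v₀ u, (∑ w ∈ (far G v₀).erase u, if x ∈ blk G v₀ w then 1 else 0) = 20 := by
    intro x hx
    rw [← card_filter, filter_erase, card_erase_of_mem (mem_filter.mpr ⟨hu, hx⟩),
      card_through_one' hG]
  rw [Finset.sum_congr rfl h3, Finset.sum_const, smul_eq_mul, card_blk hG v₀ hu]

/-- The sum of the squares of the intersection sizes with `blk u`. -/
theorem sum_two : ∑ w ∈ farN G v₀ u, (blk G v₀ u ∩ blk G v₀ w).card * (blk G v₀ u ∩ blk G v₀ w).card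
    = 240 := by
  have h1 : ∑ w ∈ farN G v₀ u, (blk G v₀ u ∩ blk G v₀ w).card * (blk G v₀ u ∩ blk G v₀ w).card
      = ∑ w ∈ (far G v₀).erase u, (blk G v₀ u ∩ blk G v₀ w).card * (blk G v₀ u ∩ blk G v₀ w).card := by
    rw [farN, Finset.sum_filter]
    apply Finset.sum_congr rfl
    intro w _
    split_ifs with h
    · rw [inter_empty_of_adj hG h, card_empty, mul_zero]
    · rfl
  rw [h1]
  have h2 : ∀ w ∈ (far G v₀).erase u, (blk G v₀ u ∩ blk G v₀ w).card * (blk G v₀ u ∩ blk G v₀ w).card
      = ∑ x ∈ blk G v₀ u, ∑ y ∈ blk G v₀ u, if x ∈ blk G v₀ w ∧ y ∈ blk G v₀ w then 1 else 0 := by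
    intro w _
    have h3 : ∀ x, (∑ y ∈ blk G v₀ u, if x ∈ blk G v₀ w ∧ y ∈ blk G v₀ w then 1 else 0)
        = if x ∈ blk G v₀ w then (blk G v₀ u ∩ blk G v₀ w).card else 0 := by
      intro x
      by_cases hx : x ∈ blk G v₀ w
      · simp only [hx, true_and, if_true]
        rw [← card_filter]
        congr 1
      · simp [hx]
    simp only [h3]
    rw [Finset.sum_ite, Finset.sum_const_zero, add_zero, Finset.sum_const, smul_eq_mul]
    congr 2
  rw [Finset.sum_congr rfl h2, Finset.sum_comm]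
  have h4 : ∀ x ∈ blk G v₀ u, (∑ w ∈ (far G v₀).erase u, ∑ y ∈ blk G v₀ u,
      if x ∈ blk G v₀ w ∧ y ∈ blk G v₀ w then 1 else 0) = 40 := by
    intro x hx
    rw [Finset.sum_comm]
    have h5 : ∀ y ∈ blk G v₀ u, (∑ w ∈ (far G v₀).erase u, if x ∈ blk G v₀ w ∧ y ∈ blk G v₀ w then 1 else 0)
        = 4 + if y = x then 16 else 0 := by
      intro y hy
      rw [← card_filter, filter_erase, card_erase_of_mem (mem_filter.mpr ⟨hu, hx, hy⟩)]
      by_cases hxy : y = x
      · subst hxy
        simp only [and_self, if_true]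
        rw [card_through_one' hG]
      · rw [if_neg hxy, card_through_two' hG _ (Ne.symm hxy)]
    rw [Finset.sum_congr rfl h5, Finset.sum_add_distrib, Finset.sum_const, smul_eq_mul,
      Finset.sum_ite_eq', if_pos hx, card_blk hG v₀ hu]
  rw [Finset.sum_congr rfl h4, Finset.sum_const, smul_eq_mul, card_blk hG v₀ hu]

/-- Two far vertices that are not adjacent have two common neighbours among the points. -/
theorem inter_eq_two {w : V} (hw : w ∈ farN G v₀ u) : (blk G v₀ u ∩ blk G v₀ w).card = 2 := by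
  have h1 := sum_one hG hu
  have h2 := sum_two hG hu
  have h3 := card_farN hG hu
  have h4 : ∑ w ∈ farN G v₀ u, (((blk G v₀ u ∩ blk G v₀ w).card : ℤ) - 2) ^ 2 = 0 := by
    have h5 : ∀ w ∈ farN G v₀ u, (((blk G v₀ u ∩ blk G v₀ w).card : ℤ) - 2) ^ 2
        = (((blk G v₀ u ∩ blk G v₀ w).card * (blk G v₀ u ∩ blk G v₀ w).card : ℕ) : ℤ)
          - 4 * ((blk G v₀ u ∩ blk G v₀ w).card : ℤ) + 4 := by
      intro w _
      push_cast
      ring
    rw [Finset.sum_congr rfl h5, Finset.sum_add_distrib, Finset.sum_sub_distrib, ← Finset.mul_sum,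
      ← Nat.cast_sum, ← Nat.cast_sum, h1, h2, Finset.sum_const, h3]
    norm_num
  have h6 := (Finset.sum_eq_zero_iff_of_nonneg (fun w _ => sq_nonneg _)).mp h4 w hw
  have h7 : ((blk G v₀ u ∩ blk G v₀ w).card : ℤ) - 2 = 0 := by
    exact pow_eq_zero_iff (by norm_num) |>.mp h6
  omega

end Counts

section System

variable (hG : G.IsSRGWith 100 22 0 6) (v₀ : V)
include hG

theorem blk_cases {u w : V} (hu : u ∈ far G v₀) (hw : w ∈ far G v₀) (huw : u ≠ w) :
    (G.Adj u w ∧ (blk G v₀ u ∩ blk G v₀ w).card = 0) ∨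
      (¬ G.Adj u w ∧ (blk G v₀ u ∩ blk G v₀ w).card = 2) := by
  by_cases h : G.Adj u w
  · left
    refine ⟨h, ?_⟩
    rw [inter_empty_of_adj hG h, card_empty]
  · right
    refine ⟨h, inter_eq_two hG hu ?_⟩
    simp only [farN, mem_filter, mem_erase]
    exact ⟨⟨huw.symm, hw⟩, h⟩

theorem blk_injOn : Set.InjOn (blk G v₀) (far G v₀ : Set V) := by
  intro u hu w hw h
  by_contra hne
  have h1 := blk_cases hG v₀ hu hw hne
  rw [← h, inter_self, card_blk hG v₀ hu] at h1
  omega

/-- The system of blocks. -/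
def sysF (G : SimpleGraph V) [DecidableRel G.Adj] (v₀ : V) : Finset (Finset (Pts G v₀)) :=
  (far G v₀).image (blk G v₀)

theorem steiner : IsSteinerSystem 3 6 (sysF G v₀ : Set (Finset (Pts G v₀))) := by
  apply Cfsg.Agent.Lib.Golay.Basic.isSteiner_of_count
  · intro b hb
    obtain ⟨u, hu, rfl⟩ := mem_image.mp hb
    exact card_blk hG v₀ hu
  · intro b hb c hc hbc
    obtain ⟨u, hu, rfl⟩ := mem_image.mp hb
    obtain ⟨w, hw, rfl⟩ := mem_image.mp hc
    have hne : u ≠ w := fun h => hbc (by rw [h])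
    rcases blk_cases hG v₀ hu hw hne with h | h <;> omega
  · rw [sysF, card_image_of_injOn (blk_injOn hG v₀), card_far hG, card_pts hG]
    decide

/-- The graph is the point-block graph of the system. -/
theorem iso_pb : Nonempty (G ≃g pointBlockGraph (sysF G v₀ : Set (Finset (Pts G v₀)))) := by
  have hα := card_pts hG v₀
  have hB := steiner hG v₀
  let B : Set (Finset (Pts G v₀)) := (sysF G v₀ : Set (Finset (Pts G v₀)))
  have hmemB : ∀ u, u ∈ far G v₀ → blk G v₀ u ∈ B := fun u hu =>
    Finset.mem_coe.mpr (mem_image_of_mem _ hu)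
  let F : V → Option (Pts G v₀ ⊕ B) := fun v =>
    if _hv : v = v₀ then none
    else if h : G.Adj v₀ v then some (Sum.inl ⟨v, h⟩)
    else some (Sum.inr ⟨blk G v₀ v, hmemB v (mem_far.mpr ⟨_hv, h⟩)⟩)
  have hF0 : F v₀ = none := by simp [F]
  have hF1 : ∀ x : Pts G v₀, F x.1 = some (Sum.inl x) := by
    intro x
    have : x.1 ≠ v₀ := x.2.ne'
    simp [F, this, x.2]
  have hF2 : ∀ u (hu : u ∈ far G v₀), F u = some (Sum.inr ⟨blk G v₀ u, hmemB u hu⟩) := by
    intro u hu
    have h := mem_far.mp hu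
    simp [F, h.1, h.2]
  have hcases : ∀ v : V, v = v₀ ∨ (∃ x : Pts G v₀, x.1 = v) ∨ v ∈ far G v₀ := by
    intro v
    by_cases h0 : v = v₀
    · exact Or.inl h0
    · by_cases h1 : G.Adj v₀ v
      · exact Or.inr (Or.inl ⟨⟨v, h1⟩, rfl⟩)
      · exact Or.inr (Or.inr (mem_far.mpr ⟨h0, h1⟩))
  have hinj : Function.Injective F := by
    intro a b hab
    rcases hcases a with rfl | ⟨x, rfl⟩ | ha <;> rcases hcases b with rfl | ⟨y, rfl⟩ | hb
    · rfl
    · rw [hF0, hF1] at hab
      simp at hab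
    · rw [hF0, hF2 _ hb] at hab
      simp at hab
    · rw [hF0, hF1] at hab
      simp at hab
    · rw [hF1, hF1] at hab
      have := Sum.inl_injective (Option.some_injective _ hab)
      rw [this]
    · rw [hF1, hF2 _ hb] at hab
      simp at hab
    · rw [hF0, hF2 _ ha] at hab
      simp at hab
    · rw [hF1, hF2 _ ha] at hab
      simp at hab
    · rw [hF2 _ ha, hF2 _ hb] at hab
      have h1 := Sum.inr_injective (Option.some_injective _ hab)
      exact blk_injOn hG v₀ ha hb (congrArg Subtype.val h1)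
  have hsurj : Function.Surjective F := by
    intro y
    rcases y with _ | x | ⟨b, hb⟩
    · exact ⟨v₀, hF0⟩
    · exact ⟨x.1, hF1 x⟩
    · obtain ⟨u, hu, rfl⟩ := mem_image.mp (Finset.mem_coe.mp hb)
      exact ⟨u, hF2 u hu⟩
  refine ⟨⟨Equiv.ofBijective F ⟨hinj, hsurj⟩, ?_⟩⟩
  intro a b
  show (pointBlockGraph B).Adj (F a) (F b) ↔ G.Adj a b
  rcases hcases a with rfl | ⟨x, rfl⟩ | ha <;> rcases hcases b with rfl | ⟨y, rfl⟩ | hb
  · rw [hF0]
    simp
  · rw [hF0, hF1]
    exact iff_of_true (adj_ni _) y.2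
  · rw [hF0, hF2 _ hb]
    exact iff_of_false (not_adj_nb _) (mem_far.mp hb).2
  · rw [hF0, hF1]
    exact iff_of_true (adj_ni _).symm x.2.symm
  · rw [hF1, hF1]
    exact iff_of_false (not_adj_ii _ _) (not_adj_pts hG v₀ x y)
  · rw [hF1, hF2 _ hb, adj_ib]
    show x ∈ blk G v₀ b ↔ _
    rw [mem_blk, SimpleGraph.adj_comm]
  · rw [hF0, hF2 _ ha]
    exact iff_of_false (fun h => not_adj_nb _ h.symm) (fun h => (mem_far.mp ha).2 h.symm)
  · rw [hF1, hF2 _ ha, SimpleGraph.adj_comm, adj_ib]
    show y ∈ blk G v₀ a ↔ _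
    rw [mem_blk]
  · rw [hF2 _ ha, hF2 _ hb, adj_bb hα hB]
    show Disjoint (blk G v₀ b) (blk G v₀ a) ↔ _
    by_cases hab : a = b
    · subst hab
      have h6 := card_blk hG v₀ ha
      refine iff_of_false ?_ (G.loopless.irrefl a)
      intro h
      rw [disjoint_self] at h
      have : blk G v₀ a = ∅ := h
      rw [this] at h6
      simp at h6
    · rcases blk_cases hG v₀ ha hb hab with ⟨h1, h2⟩ | ⟨h1, h2⟩
      · refine iff_of_true ?_ h1
        rw [disjoint_comm, Finset.disjoint_iff_inter_eq_empty]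
        exact card_eq_zero.mp h2
      · refine iff_of_false ?_ h1
        intro h
        rw [disjoint_comm, Finset.disjoint_iff_inter_eq_empty] at h
        rw [h] at h2
        simp at h2

end System

/-- **Uniqueness of the strongly regular graph with parameters (100, 22, 0, 6).** -/
theorem unique {W : Type*} [Fintype W] [DecidableEq W] {H : SimpleGraph W} [DecidableRel H.Adj]
    (hG : G.IsSRGWith 100 22 0 6) (hH : H.IsSRGWith 100 22 0 6) : Nonempty (G ≃g H) := by
  have hV : Nonempty V := by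
    rw [← Fintype.card_pos_iff, hG.card]
    norm_num
  have hW : Nonempty W := by
    rw [← Fintype.card_pos_iff, hH.card]
    norm_num
  obtain ⟨v₀⟩ := hV
  obtain ⟨w₀⟩ := hW
  obtain ⟨i1⟩ := iso_pb hG v₀
  obtain ⟨i2⟩ := iso_pb hH w₀
  obtain ⟨i3⟩ := pbIso (card_pts hG v₀) (card_pts hH w₀) (steiner hG v₀) (steiner hH w₀)
    (Cfsg.Agent.S0410.result (card_pts hG v₀) (card_pts hH w₀) (steiner hG v₀) (steiner hH w₀))
  exact ⟨(i1.trans i3).trans i2.symm⟩

end Cfsg.Agent.Lib.SteinerUniq.Srg100
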